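import Cfsg.Agent.Tits.Core
import Cfsg.Agent.H624.Sl.Defs
import Mathlib.LinearAlgebra.Matrix.SpecialLinearGroup

/-!
# S4884, H5: complete flags of `F ^ (n + 1)`

* `Flg F V n` : complete flags; the action of `GL`;
* `stdF` : the standard flag; `exists_sl` : `SL` is transitive on the flags;
* `iso_of_adj` : a map of a building which preserves the adjacencies preserves the Weyl distance.
-/

set_option autoImplicit false

namespace Cfsg.Agent.H139.PF

open Module Matrix Cfsg.Agent.H624.Sl Cfsg.Agent.Tits.Core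
open scoped MatrixGroups

universe u

section abs

variable {I W : Type*} {M : CoxeterMatrix I} [Group W] {cs : CoxeterSystem M W} {C C' : Type*}

/-- A map which preserves the adjacencies preserves the Weyl distance. -/
theorem iso_of_adj (Δ : Bldg cs C) (Δ' : Bldg cs C') (φ : C → C')
    (h : ∀ x y i, Δ.δ x y = cs.simple i → Δ'.δ (φ x) (φ y) = cs.simple i) (x y : C) :
    Δ'.δ (φ x) (φ y) = Δ.δ x y := by
  obtain ⟨k, hk⟩ : ∃ k, k = cs.length (Δ.δ x y) := ⟨_, rfl⟩
  induction k using Nat.strong_induction_on generalizing y with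
  | _ k ih =>
    by_cases hw : Δ.δ x y = 1
    · rw [hw, Δ'.eq_one, (Δ.eq_one x y).1 hw]
    · obtain ⟨i, hi⟩ := cs.exists_rightDescent_of_ne_one hw
      obtain ⟨z, hz1, hz2⟩ := Δ.exists_step x y i
      have hlt : cs.length (Δ.δ x z) < cs.length (Δ.δ x y) := by
        rw [hz2]
        exact hi
      have h1 := ih _ (hk ▸ hlt) z rfl
      have h2 : Δ.δ z y = cs.simple i := by rw [Δ.symm, hz1, cs.inv_simple]
      have h3 : Δ'.δ (φ x) (φ z) * cs.simple i = Δ.δ x y := by rw [h1, hz2, mul_assoc, cs.simple_mul_simple_self, mul_one]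
      rw [← h3]
      refine Δ'.step_lt _ _ _ i (h _ _ _ h2) ?_
      rw [h3, h1]
      exact hlt

end abs

/-- complete flags -/
@[ext] structure Flg (F : Type*) (V : Type*) [Field F] [AddCommGroup V] [Module F V] (n : ℕ) where
  /-- the members -/
  x : Fin (n + 1) → Submodule F V
  mono : Monotone x
  rk : ∀ i, finrank F (x i) = i

section gl

variable {F : Type*} [Field F] {n : ℕ}

/-- the action of `GL` on the flags -/
noncomputable instance : MulAction (GL (Fin n) F) (Flg F (Fin n → F) n) where
  smul g x := ⟨fun i => (x.x i).map (glE F n g : (Fin n → F) →ₗ[F] (Fin n → F)), fun _ _ h =>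
    Submodule.map_mono (x.mono h), fun i => by rw [LinearEquiv.finrank_map_eq, x.rk]⟩
  one_smul x := by
    ext i v
    constructor
    · rintro ⟨w, hw, rfl⟩
      rw [map_one]
      exact hw
    · intro hv
      exact ⟨v, hv, by rw [map_one]; rfl⟩
  mul_smul g h x := by
    ext i v
    constructor
    · rintro ⟨w, hw, rfl⟩
      exact ⟨_, ⟨w, hw, rfl⟩, by rw [map_mul]; rfl⟩
    · rintro ⟨_, ⟨w, hw, rfl⟩, rfl⟩
      exact ⟨w, hw, by rw [map_mul]; rfl⟩

theorem smul_x (g : GL (Fin n) F) (x : Flg F (Fin n → F) n) (i : Fin (n + 1)) :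
    (g • x).x i = (x.x i).map (glE F n g : (Fin n → F) →ₗ[F] (Fin n → F)) := rfl

theorem mem_smul_x {g : GL (Fin n) F} {x : Flg F (Fin n → F) n} {i : Fin (n + 1)} {v : Fin n → F} :
    v ∈ (g • x).x i ↔ ∃ w ∈ x.x i, g.1.mulVec w = v := Iff.rfl

theorem smul_x_eq_iff (g : GL (Fin n) F) (x y : Flg F (Fin n → F) n) (i : Fin (n + 1)) :
    (g • x).x i = (g • y).x i ↔ x.x i = y.x i := by
  rw [smul_x, smul_x]
  exact (Submodule.map_injective_of_injective (glE F n g).injective).eq_iff

/-- the span of the first `k` basis vectors -/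
def stdS (F : Type*) [Field F] (n k : ℕ) : Submodule F (Fin n → F) :=
  Submodule.span F ((Pi.basisFun F (Fin n)) '' {j : Fin n | (j : ℕ) < k})

theorem mem_stdS {k : ℕ} {v : Fin n → F} : v ∈ stdS F n k ↔ ∀ j : Fin n, k ≤ j → v j = 0 := by
  unfold stdS
  rw [Basis.mem_span_image]
  constructor
  · intro h j hj
    by_contra h0
    have h1 : j ∈ ((Pi.basisFun F (Fin n)).repr v).support := by
      rw [Finsupp.mem_support_iff, Pi.basisFun_repr]
      exact h0
    exact absurd (h h1) (not_lt.2 hj)
  · intro h j hj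
    have h1 : v j ≠ 0 := by
      rw [Finset.mem_coe, Finsupp.mem_support_iff, Pi.basisFun_repr] at hj
      exact hj
    by_contra h2
    exact h1 (h j (not_lt.1 h2))

theorem finrank_stdS {k : ℕ} (hk : k ≤ n) : finrank F (stdS F n k) = k := by
  have h1 : (Pi.basisFun F (Fin n)) '' {j : Fin n | (j : ℕ) < k} = Set.range ((Pi.basisFun F (Fin n)) ∘ Fin.castLE hk) := by
    rw [Set.range_comp]
    congr 1
    ext j
    constructor
    · intro hj
      exact ⟨⟨j, hj⟩, rfl⟩
    · rintro ⟨i, rfl⟩
      exact i.2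
  unfold stdS
  rw [h1, finrank_span_eq_card ((Pi.basisFun F (Fin n)).linearIndependent.comp _ (Fin.castLE_injective hk)),
    Fintype.card_fin]

/-- the standard flag -/
def stdF (F : Type*) [Field F] (n : ℕ) : Flg F (Fin n → F) n where
  x i := stdS F n i
  mono i i' h := by
    intro v hv
    rw [mem_stdS] at hv ⊢
    exact fun j hj => hv j (le_trans h hj)
  rk i := finrank_stdS (Nat.lt_succ_iff.1 i.2)

theorem mem_stdF {i : Fin (n + 1)} {v : Fin n → F} : v ∈ (stdF F n).x i ↔ ∀ j : Fin n, (i : ℕ) ≤ j → v j = 0 :=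
  mem_stdS

theorem Flg.lt_succ {V : Type*} [AddCommGroup V] [Module F V] (x : Flg F V n) (i : Fin n) :
    x.x i.castSucc < x.x i.succ := by
  refine lt_of_le_of_ne (x.mono (Fin.castSucc_lt_succ).le) fun h => ?_
  have h1 := x.rk i.castSucc
  have h2 := x.rk i.succ
  rw [h, h2] at h1
  simp at h1

theorem Flg.ext_of {V : Type*} [AddCommGroup V] [Module F V] [Module.Finite F V] {x y : Flg F V n}
    (h : ∀ i, x.x i ≤ y.x i) : x = y := by
  ext1
  funext i
  exact Submodule.eq_of_le_of_finrank_eq (h i) (by rw [x.rk, y.rk])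

/-- `SL` is transitive on the flags. -/
theorem exists_sl (x : Flg F (Fin (n + 1) → F) (n + 1)) : ∃ g : SpecialLinearGroup (Fin (n + 1)) F,
    (SpecialLinearGroup.toGL g) • stdF F (n + 1) = x := by
  classical
  have h1 : ∀ i : Fin (n + 1), ∃ v ∈ x.x i.succ, v ∉ x.x i.castSucc := fun i =>
    Set.exists_of_ssubset (x.lt_succ i)
  choose v hv hv' using h1
  -- the matrix
  have hsp : ∀ i : Fin (n + 2), x.x i ≤ Submodule.span F (Set.range v) := by
    intro i
    induction i using Fin.induction with
    | zero =>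
      have h0 := x.rk 0
      rw [Fin.val_zero, Submodule.finrank_eq_zero] at h0
      rw [h0]
      exact bot_le
    | succ i ih =>
      have h2 : x.x i.succ = x.x i.castSucc ⊔ Submodule.span F {v i} := by
        symm
        refine Submodule.eq_of_le_of_finrank_le (sup_le (x.lt_succ i).le
          ((Submodule.span_singleton_le_iff_mem _ _).2 (hv i))) ?_
        have h3 : x.x i.castSucc < x.x i.castSucc ⊔ Submodule.span F {v i} := by
          refine lt_of_le_of_ne le_sup_left fun h => hv' i ?_
          rw [h]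
          exact Submodule.mem_sup_right (Submodule.mem_span_singleton_self _)
        have h4 := Submodule.finrank_lt_finrank_of_lt h3
        rw [x.rk] at h4 ⊢
        rw [Fin.val_castSucc] at h4
        rw [Fin.val_succ]
        exact h4
      rw [h2]
      exact sup_le ih ((Submodule.span_singleton_le_iff_mem _ _).2 (Submodule.subset_span ⟨i, rfl⟩))
  have htop : (⊤ : Submodule F (Fin (n + 1) → F)) ≤ Submodule.span F (Set.range v) := by
    have h2 : x.x (Fin.last (n + 1)) = ⊤ := by
      apply Submodule.eq_top_of_finrank_eq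
      rw [x.rk, finrank_fin_fun, Fin.val_last]
    rw [← h2]
    exact hsp _
  have hli : LinearIndependent F v := linearIndependent_of_top_le_span_of_card_eq_finrank htop (by
    rw [Fintype.card_fin, finrank_fin_fun])
  set A : Matrix (Fin (n + 1)) (Fin (n + 1)) F := Matrix.of fun i j => v j i with hA
  have hdet : A.det ≠ 0 := by
    have h3 : LinearIndependent F A.transpose.row := hli
    have h4 := Matrix.linearIndependent_rows_iff_isUnit.1 h3
    rw [Matrix.isUnit_iff_isUnit_det, Matrix.det_transpose] at h4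
    exact h4.ne_zero
  set d : Fin (n + 1) → F := fun j => if j = 0 then A.det⁻¹ else 1 with hd
  have hdd : ∏ j, d j = A.det⁻¹ := by
    rw [Fin.prod_univ_succ, hd]
    simp
  refine ⟨⟨A * Matrix.diagonal d, by rw [Matrix.det_mul, Matrix.det_diagonal, hdd, mul_inv_cancel₀ hdet]⟩,
    Flg.ext_of fun i => ?_⟩
  rintro _ ⟨w, hw, rfl⟩
  have hw' := mem_stdF.1 hw
  show (A * Matrix.diagonal d).mulVec w ∈ x.x i
  have h5 : (A * Matrix.diagonal d).mulVec w = ∑ j, (d j * w j) • v j := by
    funext k
    rw [Matrix.mulVec, dotProduct, Finset.sum_apply]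
    refine Finset.sum_congr rfl fun j _ => ?_
    rw [Matrix.mul_diagonal, hA, Matrix.of_apply, Pi.smul_apply, smul_eq_mul]
    ring
  rw [h5]
  refine Submodule.sum_mem _ fun j _ => ?_
  by_cases hj : (i : ℕ) ≤ j
  · rw [hw' j hj, mul_zero, zero_smul]
    exact zero_mem _
  · refine Submodule.smul_mem _ _ (x.mono ?_ (hv j))
    rw [Fin.le_def, Fin.val_succ]
    omega

end gl

end Cfsg.Agent.H139.PF
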