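import Cfsg.Agent.H139.PF.Flg
import Cfsg.Agent.H116.HeckeE
import Cfsg.Agent.Nodes.RGDTypeA

/-!
# S4884, H5: the building of the complete flags of `F ^ (n + 1)`

`cs` a Coxeter system of type `A_n` (node `i` ↔ dimension `i + 1`).  `exists_lin` : the Weyl distance `Δ` on the complete
flags; `GL` preserves it, `SL` is transitive on the pairs of equal distance; `Δ.δ x y ∈ W_J` exactly if `x`, `y` have the same
members of the dimensions not in `J`; every panel has `|F| + 1` chambers.
-/

set_option autoImplicit false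
set_option linter.unusedSectionVars false

namespace Cfsg.Agent.H139.PF

open Module Matrix Cfsg.Agent.H624.Sl CoxeterSystem Cfsg.Agent.ChevalleyStructure.CoxeterGeom
  Cfsg.Agent.Tits.Roots Cfsg.Agent.Tits.Core Cfsg.Agent.Tits.Exchange
  Cfsg.Agent.Nodes.Reps Cfsg.Agent.Nodes.BNOf Cfsg.Agent.Nodes.Bruhat Cfsg.Agent.Nodes.LeviDec
  Cfsg.Agent.Nodes.RGDLib Cfsg.Agent.Nodes.RootsA Cfsg.Agent.Nodes.RGDTypeA
open Cfsg.Agent.LieRecognition.BNCox (cA)
open Cfsg.Agent.TitsThree.KSideA (tv)
open scoped MatrixGroups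

universe u

variable {F : Type u} [Field F] {n : ℕ}

theorem toGL_mulVec (g : SpecialLinearGroup (Fin (n + 1)) F) (w : Fin (n + 1) → F) :
    (SpecialLinearGroup.toGL g).1.mulVec w = g.1.mulVec w := rfl

/-- matrices whose entries `g a b ≠ 0` satisfy: `b < k` implies `a < k` -/
theorem le_std {g : SpecialLinearGroup (Fin (n + 1)) F} {i : Fin (n + 2)}
    (hg : ∀ a b : Fin (n + 1), g.1 a b ≠ 0 → (b : ℕ) < i → (a : ℕ) < i) :
    (SpecialLinearGroup.toGL g • stdF F (n + 1)).x i = (stdF F (n + 1)).x i := by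
  refine Submodule.eq_of_le_of_finrank_eq ?_ (by rw [Flg.rk, Flg.rk])
  rintro _ ⟨w, hw, rfl⟩
  rw [mem_stdF]
  intro a ha
  have hw' := mem_stdF.1 hw
  show (g.1.mulVec w) a = 0
  rw [Matrix.mulVec, dotProduct]
  refine Finset.sum_eq_zero fun b _ => ?_
  by_cases hb : (i : ℕ) ≤ b
  · rw [hw' b hb, mul_zero]
  · by_cases h0 : g.1 a b = 0
    · rw [h0, zero_mul]
    · exact absurd (hg a b h0 (not_le.1 hb)) (not_lt.2 ha)

/-- the stabilizer of the members of the dimensions not in `J` of the standard flag -/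
def stK (F : Type u) [Field F] (n : ℕ) (J : Set (Fin n)) : Subgroup (SpecialLinearGroup (Fin (n + 1)) F) where
  carrier := {g | ∀ i : Fin n, i ∉ J → (SpecialLinearGroup.toGL g • stdF F (n + 1)).x i.succ.castSucc =
    (stdF F (n + 1)).x i.succ.castSucc}
  one_mem' := fun i _ => by rw [map_one, one_smul]
  mul_mem' := by
    intro a b ha hb i hi
    rw [map_mul, mul_smul, smul_x, hb i hi, ← smul_x, ha i hi]
  inv_mem' := by
    intro a ha i hi
    have h1 := ha i hi
    rw [← smul_x_eq_iff (SpecialLinearGroup.toGL a), ← mul_smul, ← map_mul, mul_inv_cancel, map_one, one_smul, h1]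

theorem mem_stK {J : Set (Fin n)} {g : SpecialLinearGroup (Fin (n + 1)) F} : g ∈ stK F n J ↔
    ∀ i : Fin n, i ∉ J → (SpecialLinearGroup.toGL g • stdF F (n + 1)).x i.succ.castSucc =
      (stdF F (n + 1)).x i.succ.castSucc := Iff.rfl

theorem ext_flg {x y : Flg F (Fin (n + 1) → F) (n + 1)} (h : ∀ i : Fin n, x.x i.succ.castSucc = y.x i.succ.castSucc) :
    x = y := by
  ext1
  funext i
  refine Fin.lastCases ?_ (fun i => ?_) i
  · rw [Submodule.eq_top_of_finrank_eq (S := x.x (Fin.last (n + 1))) (by rw [x.rk, finrank_fin_fun, Fin.val_last]),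
      Submodule.eq_top_of_finrank_eq (S := y.x (Fin.last (n + 1))) (by rw [y.rk, finrank_fin_fun, Fin.val_last])]
  · refine Fin.cases ?_ (fun i => ?_) i
    · have h1 := x.rk 0
      have h2 := y.rk 0
      rw [Fin.val_zero, Submodule.finrank_eq_zero] at h1 h2
      rw [Fin.castSucc_zero, h1, h2]
    · exact h i

variable {W : Type*} [Group W] (cs : CoxeterSystem (cA n) W) {A : Fin n → Fin n → ℤ} (h : IsCartan (cA n) A)

theorem B_le_stK (J : Set (Fin n)) : RGD.B cs h (T (Fin (n + 1)) F) (X F) ≤ stK F n J := by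
  refine sup_le ?_ (iSup_le ?_)
  · intro g hg i _
    refine le_std fun a b hab hb => ?_
    rw [mem_T.1 hg a b hab]
    exact hb
  · rintro ⟨x, hx, h0⟩
    obtain ⟨a, b, hab, rfl⟩ := exists_of_isRoot cs h hx
    rw [X_rtA hab]
    rintro _ ⟨t, rfl⟩ i _
    have hle : a ≤ b := rtA_nonneg_iff.1 h0
    refine le_std fun c d hcd hd => ?_
    rw [tv_val hab, Matrix.add_apply] at hcd
    by_cases hcd' : c = d
    · rw [hcd']
      exact hd
    · rw [Matrix.one_apply_ne hcd', zero_add] at hcd
      have h1 : a = c ∧ b = d := by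
        by_contra h2
        exact hcd (Matrix.single_apply_of_ne _ _ _ _ _ h2)
      rw [← h1.1]
      exact lt_of_le_of_lt hle (h1.2 ▸ hd)

theorem ns_mem_stK_iff {J : Set (Fin n)} {i : Fin n} : ns n F i ∈ stK F n J ↔ i ∈ J := by
  constructor
  · intro hi
    by_contra hJ
    have h1 := hi i hJ
    -- the basis vector `e_i`
    have h2 : (Pi.single i.castSucc 1 : Fin (n + 1) → F) ∈ (stdF F (n + 1)).x i.succ.castSucc := by
      rw [mem_stdF]
      intro j hj
      refine Pi.single_eq_of_ne ?_ _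
      rintro rfl
      simp at hj
    have h3 : (ns n F i).1.mulVec (Pi.single i.castSucc 1) ∈ (stdF F (n + 1)).x i.succ.castSucc := by
      rw [← h1]
      exact ⟨_, h2, rfl⟩
    rw [mem_stdF] at h3
    have h4 := h3 i.succ (by simp)
    rw [Matrix.mulVec_single_one] at h4
    have h5 := (mono_ns (F := F) i).apply_ne_zero i.castSucc
    rw [Equiv.swap_apply_left] at h5
    exact h5 h4
  · intro hi j hj
    have hij : (j : ℕ) ≠ i := fun e => hj (by rw [Fin.ext e]; exact hi)
    refine le_std fun a b hab hb => ?_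
    rw [mono_ns i a b hab]
    simp only [Fin.val_castSucc, Fin.val_succ] at hb ⊢
    have h1 := (swap_le_of_ne i b hij).symm ▸ (Nat.lt_succ_iff.1 hb)
    omega

include h in
theorem stK_eq [Finite F] {p : ℕ} [Fact p.Prime] [CharP F p] (J : Set (Fin n)) :
    stK F n J = PJ cs h (T (Fin (n + 1)) F) (X F) J := by
  have : Finite W := finite_W cs h
  have R := rgd (F := F) (p := p) cs h
  have hG : GG cs h (T (Fin (n + 1)) F) (X F) = ⊤ := by
    rw [eq_top_iff, ← G1_eq_top (F := F) cs h]
    exact le_sup_right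
  have h1 := inf_eq_PJ R (B_le_stK (F := F) cs h J)
  have h2 : {i | ns n F i ∈ stK F n J} = J := by
    ext i
    exact ns_mem_stK_iff
  rw [hG, inf_top_eq, h2] at h1
  exact h1

end Cfsg.Agent.H139.PF
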